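import Mathlib
import Cfsg.Agent.Lib.Helper88.CNStmt
import Cfsg.Agent.Lib.Helper89.WNAUTX
import Cfsg.Agent.H85.DirProd
import Cfsg.Agent.H85.ResAut
import Cfsg.Agent.H85.Sup

/-!
# S5155 piece FRATY: the Frattini clause for `D₀` in `F`
-/

set_option autoImplicit false

namespace Cfsg.Agent.Lib.Helper23.CNFRATY

open Cfsg Cfsg.FusionSystem Cfsg.Agent.H85

universe u

/-- FRATY -/
theorem main (hExt : Cfsg.Agent.Lib.Helper88.CNStmt.ExtOverT.{u}) :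
    Cfsg.Agent.Lib.Helper88.CNStmt.FrattiniY.{u} := by
  intro Ω _ S _ p _ hS F hF T hT Y hYC hY G hG D₀ hD P hPY ψ hψ
  obtain ⟨ψ', hψ', hψ'x⟩ := hExt p hS F hF T hT Y hYC hY P hPY ψ hψ
  obtain ⟨γ, hγ, hγx⟩ := exists_aut_of_restrict F hT (le_sup_left : T ≤ T ⊔ P) hψ'
  obtain ⟨β, hβ, hβx⟩ := Cfsg.Agent.Lib.Helper89.WNAUTX.main p hS F hF T hT γ hγ
  have hTU : T ≤ T ⊔ centralizerIn S T := le_sup_left
  have hU : T ⊔ centralizerIn S T ≤ S := sup_le hT.1 inf_le_left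
  have hYU : Y ≤ T ⊔ centralizerIn S T := hYC.trans le_sup_right
  have hβi : β⁻¹ ∈ F.autGroup (T ⊔ centralizerIn S T) := inv_mem hβ
  have hχ : (T ⊔ centralizerIn S T).subtype.comp (β⁻¹).toMonoidHom ∈
      F.Hom (T ⊔ centralizerIn S T) := (mem_autGroup_iff F hU β⁻¹).1 hβi
  have hstab : ∀ a ∈ F.autGroup (T ⊔ centralizerIn S T), ∀ x : ↥(T ⊔ centralizerIn S T),
      (x : Ω) ∈ Y → ((a x : ↥(T ⊔ centralizerIn S T)) : Ω) ∈ Y := by
    intro a ha x hx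
    exact hY.2 Y le_rfl _ (restrict_mem F ((mem_autGroup_iff F hU a).1 ha) hYU) ⟨x, hx⟩
  have hψY : ∀ x : P, ψ x ∈ Y := fun x => hY.2 P hPY ψ hψ x
  have hψU : ∀ x : P, ψ x ∈ T ⊔ centralizerIn S T := fun x => hYU (hψY x)
  obtain ⟨φ₁, hφ₁def⟩ : ∃ φ₁ : P →* Ω, φ₁ =
      ((T ⊔ centralizerIn S T).subtype.comp (β⁻¹).toMonoidHom).comp (ψ.codRestrict _ hψU) :=
    ⟨_, rfl⟩
  have hφ₁x : ∀ x : P, φ₁ x = ((β⁻¹ ⟨ψ x, hψU x⟩ : ↥(T ⊔ centralizerIn S T)) : Ω) := by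
    intro x
    rw [hφ₁def]
    rfl
  have hφ₁F : φ₁ ∈ F.Hom P := by
    rw [hφ₁def]
    exact F.comp_mem hψ hχ hψU
  have hφ₁Y : ∀ x : P, φ₁ x ∈ Y := by
    intro x
    rw [hφ₁x]
    exact hstab β⁻¹ hβi ⟨ψ x, hψU x⟩ (hψY x)
  have hψ'U : ∀ z : ↥(T ⊔ P), ψ' z ∈ T ⊔ centralizerIn S T := by
    apply sup_all ((T ⊔ centralizerIn S T).comap ψ')
    · intro t
      show ψ' (Subgroup.inclusion le_sup_left t) ∈ T ⊔ centralizerIn S T
      rw [← hγx t]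
      exact hTU (γ t).2
    · intro x
      show ψ' (Subgroup.inclusion le_sup_right x) ∈ T ⊔ centralizerIn S T
      rw [hψ'x x]
      exact hψU x
  have hle : P ⊔ T ≤ T ⊔ P := sup_le le_sup_right le_sup_left
  have hψ'r := restrict_mem F hψ' hle
  have hval : ∀ z : ↥(P ⊔ T), (ψ'.comp (Subgroup.inclusion hle)) z ∈ T ⊔ centralizerIn S T :=
    fun z => hψ'U _
  have hψ'' := F.comp_mem hψ'r hχ hval
  have hφ₁G : φ₁ ∈ G.Hom P := by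
    rw [hG P]
    refine ⟨hφ₁F, hPY.trans hYC, fun x => hYC (hφ₁Y x), _, hψ'', ?_, ?_⟩
    · intro x
      rw [hφ₁x]
      have e : (⟨ψ' (Subgroup.inclusion hle (Subgroup.inclusion le_sup_left x)), hval _⟩ :
          ↥(T ⊔ centralizerIn S T)) = ⟨ψ x, hψU x⟩ := by
        apply Subtype.ext
        exact hψ'x x
      show ((β⁻¹ (⟨ψ' (Subgroup.inclusion hle (Subgroup.inclusion le_sup_left x)), hval _⟩ :
          ↥(T ⊔ centralizerIn S T)) : ↥(T ⊔ centralizerIn S T)) : Ω) = _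
      rw [e]
    · intro t
      have e : (⟨ψ' (Subgroup.inclusion hle (Subgroup.inclusion le_sup_right t)), hval _⟩ :
          ↥(T ⊔ centralizerIn S T)) = β (Subgroup.inclusion le_sup_left t) := by
        apply Subtype.ext
        rw [hβx t, hγx t]
        rfl
      show ((β⁻¹ (⟨ψ' (Subgroup.inclusion hle (Subgroup.inclusion le_sup_right t)), hval _⟩ :
          ↥(T ⊔ centralizerIn S T)) : ↥(T ⊔ centralizerIn S T)) : Ω) = (t : Ω)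
      rw [e, MulAut.inv_apply_self]
      rfl
  obtain ⟨α', hα', φ₀, hφ₀, hα'x⟩ := hD.2.2.2 P hPY φ₁ hφ₁G
  have hGF : G.autGroup Y ≤ F.autGroup Y := by
    apply Subgroup.closure_mono
    intro a ha
    have h1 : Y.subtype.comp a.toMonoidHom ∈ G.Hom Y := ha
    rw [hG Y] at h1
    exact h1.1
  have hβY : resAut hYU β (hstab β hβ) (hstab β⁻¹ hβi) ∈ F.autGroup Y :=
    (mem_autGroup_iff F hY.1 _).2
      (hom_congr F (restrict_mem F ((mem_autGroup_iff F hU β).1 hβ) hYU) (fun _ => rfl))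
  refine ⟨resAut hYU β (hstab β hβ) (hstab β⁻¹ hβi) * α', mul_mem hβY (hGF hα'), φ₀, hφ₀, ?_⟩
  intro x hx
  have h1 := hα'x x hx
  have e : (⟨((α' ⟨φ₀ x, hx⟩ : Y) : Ω), hYU (α' ⟨φ₀ x, hx⟩).2⟩ : ↥(T ⊔ centralizerIn S T)) =
      β⁻¹ ⟨ψ x, hψU x⟩ := by
    apply Subtype.ext
    rw [← hφ₁x x, h1]
  show ψ x = ((β (⟨((α' ⟨φ₀ x, hx⟩ : Y) : Ω), hYU (α' ⟨φ₀ x, hx⟩).2⟩ :
    ↥(T ⊔ centralizerIn S T)) : ↥(T ⊔ centralizerIn S T)) : Ω)
  rw [e, MulAut.apply_inv_self]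

end Cfsg.Agent.Lib.Helper23.CNFRATY
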