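import Mathlib
import Cfsg.Agent.Lib.Helper30.CTIStmt

/-!
# S4064 piece MAB (sub-assembly): the maximal centralizer `M` is abelian
-/

set_option autoImplicit false

namespace Cfsg.Agent.Lib.Helper23.CTIMAB

open Cfsg.Agent.Lib.Helper30.CTIStmt

universe u

/-- MAB -/
theorem main : MAB.{u} := by
  intro hSQAB hVCARD G _ _ M V hCTI hZ hcv hV ⟨k, hk2, hVk, hMk⟩
  have h3a : ∀ v ∈ V, ∀ m ∈ M, v * m = m * v := by
    intro v hv m hm
    obtain ⟨hvM, hv2⟩ := (hV v).1 hv
    by_cases hv1 : v = 1
    · rw [hv1, one_mul, mul_one]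
    · exact hcv v hvM (orderOf_eq_prime hv2 hv1) m hm
  have hVM : V ≤ M := fun v hv => ((hV v).1 hv).1
  rcases hMk with hMk | hMk
  · have hVeq : V = M := Subgroup.eq_of_le_of_card_ge hVM (by rw [hMk, hVk])
    intro x hx y hy
    exact h3a x (hVeq ▸ hx) y hy
  · obtain ⟨hne, -, -⟩ := hZ.se
    obtain ⟨g, hg⟩ : ∃ g : G, g ∉ NM M := by
      by_contra h
      push Not at h
      exact hne (eq_top_iff.2 (fun x _ => h x))
    have hxy : ((1 : G) : G ⧸ NM M) ≠ (g : G ⧸ NM M) := by
      intro h
      rw [QuotientGroup.eq] at h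
      apply hg
      simpa using h
    obtain ⟨u, hu2, huxy⟩ := hZ.swap _ _ hxy
    have huH : u ∉ NM M := by
      intro huH
      apply hxy
      rw [← huxy]
      have hsm : u • ((1 : G) : G ⧸ NM M) = ((u * 1 : G) : G ⧸ NM M) := rfl
      rw [hsm, QuotientGroup.eq]
      simpa using huH
    have hVc := hVCARD G M V hV hZ.invM
    have hDc : Nat.card (DU (NM M) u) = 2 ^ k - 1 := by
      rw [hZ.dcard u hu2 huH]
      omega
    have hev := hZ.even
    obtain ⟨v, hvM, hv2⟩ : ∃ v ∈ M, orderOf v = 2 := by
      obtain ⟨v', hv'⟩ := exists_prime_orderOf_dvd_card' (G := ↥M) 2 hev.two_dvd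
      exact ⟨v', v'.2, by rw [Subgroup.orderOf_coe]; exact hv'⟩
    have hvv : v ^ 2 = 1 := by
      rw [← hv2]
      exact pow_orderOf_eq_one v
    have hv1 : v ≠ 1 := by
      intro h
      rw [h, orderOf_one] at hv2
      omega
    apply hSQAB G M V (DU (NM M) u) k hMk hVk hDc hV h3a
    · intro d hd m hm
      exact (Subgroup.mem_set_normalizer_iff.1 (Subgroup.mem_inf.1 hd).1 m).1 hm
    · intro d hd hd1 m hm hm1 hcomm
      apply hd1
      have hdM : d ∈ M := hZ.cc m hm hm1 (by
        rw [Subgroup.mem_centralizer_iff]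
        intro h hh
        rw [Set.mem_singleton_iff] at hh
        rw [hh]
        exact hcomm.symm)
      have hmem : d ∈ DU (NM M) u ⊓ M := Subgroup.mem_inf.2 ⟨hd, hdM⟩
      rw [hZ.dM u hu2 huH] at hmem
      exact Subgroup.mem_bot.1 hmem
    · intro y hy d hd
      have hdN : d ∈ NM M := (Subgroup.mem_inf.1 hd).1
      have hvC : v ∈ Subgroup.centralizer ({y} : Set G) := by
        rw [Subgroup.mem_centralizer_iff]
        intro h hh
        rw [Set.mem_singleton_iff] at hh
        rw [hh]
        exact (hcv v hvM hv2 y hy).symm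
      have hdvM : d * v * d⁻¹ ∈ M := (Subgroup.mem_set_normalizer_iff.1 hdN v).1 hvM
      have hdv2 : orderOf (d * v * d⁻¹) = 2 := by
        apply orderOf_eq_prime
        · rw [conj_pow, hvv]
          group
        · intro h
          apply hv1
          have h1 : v = d⁻¹ * (d * v * d⁻¹) * d := by group
          rw [h1, h]
          group
      have hdvC : d * v * d⁻¹ ∈ Subgroup.centralizer ({y} : Set G) := by
        rw [Subgroup.mem_centralizer_iff]
        intro h hh
        rw [Set.mem_singleton_iff] at hh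
        rw [hh]
        exact (hcv _ hdvM hdv2 y hy).symm
      have hdNC : d ∈ Subgroup.normalizer
          ((Subgroup.centralizer ({y} : Set G) : Subgroup G) : Set G) := by
        by_contra hnot
        exact hv1 (hCTI y d hnot v hvC hdvC)
      have hyC : y ∈ Subgroup.centralizer ({y} : Set G) := by
        rw [Subgroup.mem_centralizer_iff]
        intro h hh
        rw [Set.mem_singleton_iff] at hh
        rw [hh]
      have h1 : d * y * d⁻¹ ∈ Subgroup.centralizer ({y} : Set G) :=
        (Subgroup.mem_set_normalizer_iff.1 hdNC y).1 hyC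
      rw [Subgroup.mem_centralizer_iff] at h1
      exact h1 y (Set.mem_singleton y)

end Cfsg.Agent.Lib.Helper23.CTIMAB
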