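import Mathlib
import Cfsg.Agent.Lib.Helper30.CTIStmt

/-!
# S4064 piece ZAS (sub-assembly): `G` is a Zassenhaus group on the cosets of `H = N(M)`
-/

set_option autoImplicit false

namespace Cfsg.Agent.Lib.Helper23.CTIZAS

open Cfsg.Agent.Lib.Helper30.CTIStmt

universe u

/-- ZAS -/
theorem main : ZAS.{u} := by
  intro hINVERT hZ3' hZ2' hZ2T hDEG hZ5 G _ _ M hZ hCN hns hnil
  have hINV := hINVERT G M hZ
  have hZ3 := hZ3' G M hZ hINV
  have hZ2 := hZ2' G M hZ hZ3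
  have h2T := hZ2T G (NM M) hZ2
  have hdeg := hDEG G M hZ hZ2
  refine ⟨⟨?_, h2T, hZ3, ?_, hZ5 G M hZ hCN hns hnil hdeg⟩, hdeg⟩
  · have hM2 : 2 ≤ Nat.card M := by
      obtain ⟨c, hc⟩ := hZ.even
      have hpos : 0 < Nat.card M := Nat.card_pos
      omega
    have h3 : 2 < Nat.card (G ⧸ NM M) := by omega
    have : Fintype (G ⧸ NM M) := Fintype.ofFinite _
    rw [Nat.card_eq_fintype_card] at h3
    obtain ⟨a, b, c, hab, hac, hbc⟩ := Fintype.two_lt_card_iff.1 h3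
    constructor
    intro g₁ g₂ h
    have h1 : g₂⁻¹ * g₁ = 1 := by
      apply hZ3 (g₂⁻¹ * g₁) a b c hab hbc hac
      · rw [mul_smul, h a, inv_smul_smul]
      · rw [mul_smul, h b, inv_smul_smul]
      · rw [mul_smul, h c, inv_smul_smul]
    calc g₁ = g₂ * (g₂⁻¹ * g₁) := by group
      _ = g₂ := by rw [h1, mul_one]
  · obtain ⟨hne, -, -⟩ := hZ.se
    obtain ⟨g, hg⟩ : ∃ g : G, g ∉ NM M := by
      by_contra h
      push Not at h
      exact hne (eq_top_iff.2 (fun x _ => h x))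
    have hxy : ((1 : G) : G ⧸ NM M) ≠ (g : G ⧸ NM M) := by
      intro h
      rw [QuotientGroup.eq] at h
      apply hg
      simpa using h
    obtain ⟨u, hu2, huxy⟩ := hZ.swap _ _ hxy
    have huH : u ∉ NM M := by
      intro huH
      apply hxy
      rw [← huxy]
      have hsm : u • ((1 : G) : G ⧸ NM M) = ((u * 1 : G) : G ⧸ NM M) := rfl
      rw [hsm, QuotientGroup.eq]
      simpa using huH
    have hD2 : 2 ≤ Nat.card (DU (NM M) u) := by
      rw [hZ.dcard u hu2 huH]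
      exact hZ.i2
    have hDne : DU (NM M) u ≠ ⊥ := by
      intro h
      rw [h, Subgroup.card_bot] at hD2
      omega
    obtain ⟨⟨d, hd⟩, hd1⟩ := Subgroup.ne_bot_iff_exists_ne_one.1 hDne
    have hd1' : d ≠ 1 := fun h => hd1 (Subtype.ext h)
    obtain ⟨hdH, hdU⟩ := Subgroup.mem_inf.1 hd
    obtain ⟨h, hhH, hhd⟩ := Subgroup.mem_map.1 hdU
    have hhd' : u * h * u⁻¹ = d := by simpa using hhd
    refine ⟨d, hd1', ((1 : G) : G ⧸ NM M), ((u : G) : G ⧸ NM M), ?_, ?_, ?_⟩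
    · intro h1
      rw [QuotientGroup.eq] at h1
      apply huH
      simpa using h1
    · have hsm : d • ((1 : G) : G ⧸ NM M) = ((d * 1 : G) : G ⧸ NM M) := rfl
      rw [hsm, QuotientGroup.eq]
      simpa using hdH
    · have hsm : d • ((u : G) : G ⧸ NM M) = ((d * u : G) : G ⧸ NM M) := rfl
      rw [hsm, QuotientGroup.eq, ← hhd']
      have h2 : (u * h * u⁻¹ * u)⁻¹ * u = h⁻¹ := by group
      rw [h2]
      exact inv_mem hhH

end Cfsg.Agent.Lib.Helper23.CTIZAS
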