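import Mathlib
import Cfsg.Prelude.Def_Blocks
import Cfsg.Agent.Lib.Helper74.McKayDefs
import Cfsg.Agent.S4607

/-!
# Blocks with defect group of order two (piece H of S4502)

For a Sylow `2`-subgroup `P` of order `2`, `N_G(P) = C_G(P)`, so the stabilizer of any function
on `C_G(P)` lies in `C_G(P)`, and a block with defect group `P` has exactly two characters.
-/

set_option autoImplicit false

namespace Cfsg.Agent.Lib.Helper23.McKayH

open Cfsg Cfsg.Agent.Lib.Helper74.McKayDefs

universe u
variable {G : Type u} [Group G]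

/-- The normalizer of a subgroup of order two is its centralizer. -/
theorem normalizer_le_centralizer_of_card_two (P : Subgroup G) (hP : Nat.card P = 2) :
    Subgroup.normalizer (P : Set G) ≤ Subgroup.centralizer (P : Set G) := by
  intro n hn
  rw [Subgroup.mem_centralizer_iff]
  intro x hx
  by_cases hx1 : x = 1
  · subst hx1
    simp
  · have h1 : n * x * n⁻¹ ∈ P := (Subgroup.mem_normalizer_iff.1 hn x).1 hx
    have h2 : n * x * n⁻¹ ≠ 1 := by
      intro h
      apply hx1
      have h3 : x = n⁻¹ * (n * x * n⁻¹) * n := by group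
      rw [h3, h]
      group
    obtain ⟨y, -, hy⟩ := (Nat.card_eq_two_iff' (1 : P)).1 hP
    have e1 : (⟨x, hx⟩ : P) = y := hy _ (fun h => hx1 (congrArg Subtype.val h))
    have e2 : (⟨n * x * n⁻¹, h1⟩ : P) = y := hy _ (fun h => h2 (congrArg Subtype.val h))
    have e3 : n * x * n⁻¹ = x := congrArg Subtype.val (e2.trans e1.symm)
    calc x * n = (n * x * n⁻¹) * n := by rw [e3]
      _ = n * x := by group

/-- **Piece H.** A `2`-block whose defect group is a Sylow `2`-subgroup of order `2` has
`e + (2 - 1) / e` characters, `e` the index of `C_G(P)` in the stabilizer of any `θ`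
(here `e = 1`). -/
theorem card_block_two [Finite G] (M : Ideal AlgInt) (hM : IsPModular 2 M) (P : Sylow 2 G) (hP : Nat.card P = 2) (θ : IrrCharacter ↥(Subgroup.centralizer ((P : Subgroup G) : Set G))) (B : Set (IrrCharacter G)) (hB : IsPBlock M B) (hBP : IsDefectGroup 2 M B (P : Subgroup G)) : Nat.card B = (Subgroup.centralizer ((P : Subgroup G) : Set G)).relIndex (stab (P : Subgroup G) (θ : ↥(Subgroup.centralizer ((P : Subgroup G) : Set G)) → ℂ)) + (2 - 1) / (Subgroup.centralizer ((P : Subgroup G) : Set G)).relIndex (stab (P : Subgroup G) (θ : ↥(Subgroup.centralizer ((P : Subgroup G) : Set G)) → ℂ)) := by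
  have h2 : Nat.card B = 2 := (Cfsg.Agent.S4607.result 2 M hM B hB (P : Subgroup G) hBP).2 hP
  have hle : stab (P : Subgroup G) (θ : ↥(Subgroup.centralizer ((P : Subgroup G) : Set G)) → ℂ) ≤
      Subgroup.centralizer ((P : Subgroup G) : Set G) :=
    (stab_le_normalizer _ _).trans (normalizer_le_centralizer_of_card_two (P : Subgroup G) hP)
  have h1 : (Subgroup.centralizer ((P : Subgroup G) : Set G)).relIndex
      (stab (P : Subgroup G) (θ : ↥(Subgroup.centralizer ((P : Subgroup G) : Set G)) → ℂ)) = 1 :=
    Subgroup.relIndex_eq_one.2 hle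
  rw [h1, h2]

end Cfsg.Agent.Lib.Helper23.McKayH
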