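import Mathlib
import Cfsg.Agent.Lib.Helper91.Hall

/-!
Piece S4025/N65: a solvable group of automorphisms of an elementary abelian group of order `81`
cannot have order divisible by `5` and by `13`.
-/

set_option autoImplicit false
set_option linter.unusedSectionVars false
set_option linter.style.haveILetI false
set_option linter.unusedVariables false

namespace Cfsg.Agent.Lib.Helper23.No65

universe u v

section Core

variable {Q : Type u} [Group Q] [Finite Q] {M : Type v} [Group M] [Finite M] (φ : M →* MulAut Q)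

/-- the common fixed points of a subgroup `T` -/
def fixOf (T : Subgroup M) : Subgroup Q where
  carrier := {q | ∀ t ∈ T, φ t q = q}
  mul_mem' := by
    intro a b ha hb t ht
    rw [map_mul, ha t ht, hb t ht]
  one_mem' := by
    intro t _
    exact map_one _
  inv_mem' := by
    intro a ha t ht
    rw [map_inv, ha t ht]

/-- the stabiliser of a point -/
def stabOf (u : Q) : Subgroup M where
  carrier := {t | φ t u = u}
  mul_mem' := by
    intro a b ha hb
    have ha' : φ a u = u := ha
    have hb' : φ b u = u := hb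
    show φ (a * b) u = u
    rw [map_mul, MulAut.mul_apply, hb', ha']
  one_mem' := by
    show φ 1 u = u
    rw [map_one]
    rfl
  inv_mem' := by
    intro a ha
    have ha' : φ a u = u := ha
    show φ a⁻¹ u = u
    rw [map_inv]
    calc (φ a)⁻¹ u = (φ a)⁻¹ (φ a u) := by rw [ha']
      _ = u := MulAut.inv_apply_self _ _ _

theorem card_fixOf_modEq (T : Subgroup M) (r : ℕ) [Fact r.Prime] (hT : IsPGroup r T) :
    Nat.card Q ≡ Nat.card (fixOf φ T) [MOD r] := by
  letI : MulAction T Q := MulAction.compHom Q (φ.comp T.subtype)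
  have h := hT.card_modEq_card_fixedPoints Q
  have e : (MulAction.fixedPoints T Q) = ((fixOf φ T : Subgroup Q) : Set Q) := by
    ext q
    constructor
    · intro hq t ht
      exact hq ⟨t, ht⟩
    · intro hq t
      exact hq t.1 t.2
  rw [e] at h
  exact h

theorem card_fixOf_dvd (hQ : Nat.card Q = 81) (T : Subgroup M) :
    Nat.card (fixOf φ T) ∣ 81 := by
  rw [← hQ]
  exact Subgroup.card_subgroup_dvd_card _

theorem fixOf_ne_top (hφ : Function.Injective φ) (hQ : Nat.card Q = 81) {T : Subgroup M}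
    (hT : T ≠ ⊥) : Nat.card (fixOf φ T) ≠ 81 := by
  intro h
  apply hT
  have htop : fixOf φ T = ⊤ := Subgroup.eq_top_of_card_eq _ (by rw [h, hQ])
  rw [Subgroup.eq_bot_iff_forall]
  intro t ht
  apply hφ
  rw [map_one]
  ext q
  have hq : q ∈ fixOf φ T := by rw [htop]; trivial
  exact hq t ht

theorem fix_five (hφ : Function.Injective φ) (hQ : Nat.card Q = 81) {T : Subgroup M}
    (hT : IsPGroup 5 T) (hT1 : T ≠ ⊥) : Nat.card (fixOf φ T) = 1 := by
  haveI : Fact (Nat.Prime 5) := ⟨by norm_num⟩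
  have h1 := card_fixOf_modEq φ T 5 hT
  have h2 := card_fixOf_dvd φ hQ T
  have h3 := fixOf_ne_top φ hφ hQ hT1
  rw [hQ] at h1
  have h4 : (81 : ℕ) = 3 ^ 4 := by norm_num
  rw [h4] at h2
  obtain ⟨m, hm, hc⟩ := (Nat.dvd_prime_pow Nat.prime_three).mp h2
  rw [hc] at h1 h3 ⊢
  unfold Nat.ModEq at h1
  interval_cases m <;> first | (norm_num at h1; done) | (norm_num at h3; done) | norm_num

theorem fix_thirteen (hφ : Function.Injective φ) (hQ : Nat.card Q = 81) {T : Subgroup M}
    (hT : IsPGroup 13 T) (hT1 : T ≠ ⊥) : Nat.card (fixOf φ T) = 3 := by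
  haveI : Fact (Nat.Prime 13) := ⟨by norm_num⟩
  have h1 := card_fixOf_modEq φ T 13 hT
  have h2 := card_fixOf_dvd φ hQ T
  have h3 := fixOf_ne_top φ hφ hQ hT1
  rw [hQ] at h1
  have h4 : (81 : ℕ) = 3 ^ 4 := by norm_num
  rw [h4] at h2
  obtain ⟨m, hm, hc⟩ := (Nat.dvd_prime_pow Nat.prime_three).mp h2
  rw [hc] at h1 h3 ⊢
  unfold Nat.ModEq at h1
  interval_cases m <;> first | (norm_num at h1; done) | (norm_num at h3; done) | norm_num

omit [Finite Q] in
theorem exists_ne_one_of_card {F : Subgroup Q} (hF : Nat.card F = 3) : ∃ u ∈ F, u ≠ 1 := by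
  by_contra hcon
  push Not at hcon
  have h : F = ⊥ := (Subgroup.eq_bot_iff_forall _).mpr hcon
  rw [h, Subgroup.card_bot] at hF
  norm_num at hF

/-- an automorphism preserving a subgroup of order `3` has its square fixing it pointwise -/
theorem apply_sq_of_card_three (hQp : ∀ a : Q, a ^ 3 = 1) (F : Subgroup Q)
    (hF : Nat.card F = 3) (b : MulAut Q) (hb : ∀ q ∈ F, b q ∈ F) {u : Q} (hu : u ∈ F)
    (hu1 : u ≠ 1) : b (b u) = u := by
  haveI : Fact (Nat.Prime 3) := ⟨Nat.prime_three⟩
  have ho : orderOf u = 3 := orderOf_eq_prime (hQp u) hu1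
  have hz : Subgroup.zpowers u = F := by
    apply Subgroup.eq_of_le_of_card_ge
    · rw [Subgroup.zpowers_le]
      exact hu
    · rw [hF, Nat.card_zpowers, ho]
  have hbu : b u ∈ Subgroup.zpowers u := by
    rw [hz]
    exact hb u hu
  rw [← mem_powers_iff_mem_zpowers] at hbu
  obtain ⟨n, hn⟩ := hbu
  have hn' : u ^ (n % 3) = b u := by
    rw [← ho, pow_mod_orderOf]
    exact hn
  have hlt : n % 3 < 3 := Nat.mod_lt _ (by norm_num)
  have hbu1 : b u ≠ 1 := by
    intro h
    apply hu1
    exact b.injective (h.trans (map_one b).symm)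
  obtain ⟨j, hj⟩ : ∃ j, j = n % 3 := ⟨_, rfl⟩
  rw [← hj] at hn' hlt
  interval_cases j
  · rw [pow_zero] at hn'
    exact absurd hn'.symm hbu1
  · rw [pow_one] at hn'
    rw [← hn', ← hn']
  · rw [← hn', map_pow, ← hn', ← pow_mul]
    have : u ^ (2 * 2) = u ^ 3 * u := by rw [← pow_succ]
    rw [this, hQp, one_mul]

theorem zpowers_pgroup (z : M) (p : ℕ) [Fact p.Prime] (hz : orderOf z = p) :
    IsPGroup p (Subgroup.zpowers z) ∧ Subgroup.zpowers z ≠ ⊥ := by
  constructor
  · apply IsPGroup.of_card (n := 1)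
    rw [Nat.card_zpowers, hz, pow_one]
  · rw [Ne, Subgroup.zpowers_eq_bot]
    rintro rfl
    rw [orderOf_one] at hz
    exact (Fact.out : p.Prime).one_lt.ne hz

theorem core (hQp : ∀ a : Q, a ^ 3 = 1) (hQ : Nat.card Q = 81)
    (hφ : Function.Injective φ) [Group.IsSolvable M]
    (h5 : 5 ∣ Nat.card M) (h13 : 13 ∣ Nat.card M)
    (hpr : ∀ r : ℕ, r.Prime → r ∣ Nat.card M → r = 5 ∨ r = 13) : False := by
  haveI : Fact (Nat.Prime 5) := ⟨by norm_num⟩
  haveI : Fact (Nat.Prime 13) := ⟨by norm_num⟩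
  haveI : Nontrivial M := by
    rw [← Finite.one_lt_card_iff_nontrivial]
    have := Nat.le_of_dvd Nat.card_pos h5
    omega
  obtain ⟨r, N, hr, hNn, -, hNp, hNne⟩ :=
    Cfsg.Agent.Lib.Helper91.Hall.exists_normal_abelian_pgroup M
  haveI := hNn
  obtain ⟨x, hx⟩ := exists_prime_orderOf_dvd_card' 13 h13
  obtain ⟨y, hy⟩ := exists_prime_orderOf_dvd_card' 5 h5
  haveI : Fact r.Prime := ⟨hr⟩
  obtain ⟨k, hk⟩ := hNp.exists_card_eq
  have hk0 : k ≠ 0 := by
    intro h0
    rw [h0, pow_zero] at hk
    exact hNne (Subgroup.card_eq_one.mp hk)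
  have hrM : r ∣ Nat.card M := by
    have h1 : r ∣ Nat.card N := by
      rw [hk]
      exact dvd_pow_self r hk0
    exact h1.trans (Subgroup.card_subgroup_dvd_card N)
  -- nontrivial elements of `5`-power order fix no nontrivial point
  have hfree5 : ∀ (T : Subgroup M), IsPGroup 5 T → ∀ a ∈ T, a ≠ 1 → ∀ q : Q, φ a q = q → q = 1 := by
    intro T hT a ha ha1 q hq
    have hle : Subgroup.zpowers a ≤ T := by
      rw [Subgroup.zpowers_le]
      exact ha
    have hp : IsPGroup 5 (Subgroup.zpowers a) := hT.to_le hle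
    have hne : Subgroup.zpowers a ≠ ⊥ := by
      rw [Ne, Subgroup.zpowers_eq_bot]
      exact ha1
    have hfix := fix_five φ hφ hQ hp hne
    have hmem : q ∈ fixOf φ (Subgroup.zpowers a) := by
      have hle2 : Subgroup.zpowers a ≤ stabOf φ q := by
        rw [Subgroup.zpowers_le]
        exact hq
      exact fun t ht => hle2 ht
    have hbot : fixOf φ (Subgroup.zpowers a) = ⊥ := Subgroup.card_eq_one.mp hfix
    rw [hbot, Subgroup.mem_bot] at hmem
    exact hmem
  rcases hpr r hr hrM with rfl | rfl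
  · -- `N` is a `5`-group
    obtain ⟨hpX, hneX⟩ := zpowers_pgroup x 13 hx
    have hF := fix_thirteen φ hφ hQ hpX hneX
    obtain ⟨u, huF, hu1⟩ := exists_ne_one_of_card hF
    have hinj : Function.Injective (fun a : N => φ (a : M) u) := by
      intro a b hab
      by_contra hne
      have h1 : (b : M)⁻¹ * (a : M) ≠ 1 := by
        intro h
        apply hne
        exact Subtype.ext (inv_mul_eq_one.mp h).symm
      have h2 : φ ((b : M)⁻¹ * (a : M)) u = u := by
        have hab' : φ (a : M) u = φ (b : M) u := hab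
        rw [map_mul, map_inv, MulAut.mul_apply, hab']
        exact MulAut.inv_apply_self _ _ _
      exact hu1 (hfree5 N hNp _ (N.mul_mem (N.inv_mem b.2) a.2) h1 u h2)
    have hle81 : Nat.card N ≤ 81 := by
      rw [← hQ]
      exact Nat.card_le_card_of_injective _ hinj
    have hk2 : k ≤ 2 := by
      by_contra h
      push Not at h
      have h3 : 5 ^ 3 ≤ 5 ^ k := Nat.pow_le_pow_right (by norm_num) h
      rw [hk] at hle81
      norm_num at h3
      omega
    letI : MulAction (Subgroup.zpowers x) N :=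
      MulAction.compHom N ((MulAut.conjNormal : M →* MulAut N).comp (Subgroup.zpowers x).subtype)
    have hcong := hpX.card_modEq_card_fixedPoints N
    obtain ⟨a, ha, ha1⟩ : ∃ a : N, a ∈ MulAction.fixedPoints (Subgroup.zpowers x) N ∧ a ≠ 1 := by
      by_contra hcon
      push Not at hcon
      have hsub : Nat.card (MulAction.fixedPoints (Subgroup.zpowers x) N) = 1 := by
        rw [Nat.card_eq_one_iff_unique]
        refine ⟨⟨fun a b => Subtype.ext ((hcon a.1 a.2).trans (hcon b.1 b.2).symm)⟩, ⟨⟨1, ?_⟩⟩⟩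
        intro g
        show MulAut.conjNormal (g : M) (1 : N) = 1
        exact map_one _
      rw [hsub, hk] at hcong
      unfold Nat.ModEq at hcong
      interval_cases k
      · exact hk0 rfl
      · norm_num at hcong
      · norm_num at hcong
    have hcomm : x * (a : M) = (a : M) * x := by
      have h2 : MulAut.conjNormal x a = a := ha ⟨x, Subgroup.mem_zpowers x⟩
      have h3 := congrArg Subtype.val h2
      rw [MulAut.conjNormal_apply] at h3
      calc x * (a : M) = x * a * x⁻¹ * x := by group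
        _ = a * x := by rw [h3]
    have hpres : ∀ q ∈ fixOf φ (Subgroup.zpowers x),
        φ (a : M) q ∈ fixOf φ (Subgroup.zpowers x) := by
      intro q hq t ht
      have htc : t * (a : M) = (a : M) * t := by
        obtain ⟨j, rfl⟩ := Subgroup.mem_zpowers_iff.mp ht
        exact (Commute.zpow_left (show Commute x (a : M) from hcomm) j).eq
      calc φ t (φ (a : M) q) = φ (t * a) q := by rw [map_mul]; rfl
        _ = φ ((a : M) * t) q := by rw [htc]
        _ = φ (a : M) (φ t q) := by rw [map_mul]; rfl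
        _ = φ (a : M) q := by rw [hq t ht]
    have hsq := apply_sq_of_card_three hQp (fixOf φ (Subgroup.zpowers x)) hF (φ (a : M)) hpres
      huF hu1
    have haa : φ ((a : M) * a) u = u := by
      rw [map_mul]
      exact hsq
    have ha1' : (a : M) ≠ 1 := fun h => ha1 (Subtype.ext h)
    have haa1 : (a : M) * a ≠ 1 := by
      intro h
      obtain ⟨j, hj⟩ := hNp a
      have hj' : (a : M) ^ 5 ^ j = 1 := by
        have := congrArg Subtype.val hj
        simpa using this
      have hodd : orderOf (a : M) ∣ 2 := orderOf_dvd_of_pow_eq_one (by rw [sq]; exact h)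
      have h5' : orderOf (a : M) ∣ 5 ^ j := orderOf_dvd_of_pow_eq_one hj'
      have hcop : Nat.Coprime 2 (5 ^ j) := Nat.Coprime.pow_right j (by norm_num)
      have hd := Nat.dvd_gcd hodd h5'
      rw [Nat.Coprime.gcd_eq_one hcop] at hd
      exact ha1' (orderOf_eq_one_iff.mp (Nat.dvd_one.mp hd))
    exact hu1 (hfree5 N hNp _ (N.mul_mem a.2 a.2) haa1 u haa)
  · -- `N` is a `13`-group
    have hF := fix_thirteen φ hφ hQ hNp hNne
    obtain ⟨u, huF, hu1⟩ := exists_ne_one_of_card hF
    have hpres : ∀ q ∈ fixOf φ N, φ y q ∈ fixOf φ N := by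
      intro q hq t ht
      have h1 : y⁻¹ * t * y ∈ N := by
        have := hNn.conj_mem t ht y⁻¹
        rwa [inv_inv] at this
      have h2 : t * y = y * (y⁻¹ * t * y) := by group
      calc φ t (φ y q) = φ (t * y) q := by rw [map_mul]; rfl
        _ = φ (y * (y⁻¹ * t * y)) q := by rw [h2]
        _ = φ y (φ (y⁻¹ * t * y) q) := by rw [map_mul]; rfl
        _ = φ y q := by rw [hq _ h1]
    have hsq := apply_sq_of_card_three hQp (fixOf φ N) hF (φ y) hpres huF hu1
    have hyy : φ (y * y) u = u := by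
      rw [map_mul]
      exact hsq
    have hord : orderOf (y * y) = 5 := by
      rw [← sq, Nat.Coprime.orderOf_pow (by rw [hy]; norm_num), hy]
    obtain ⟨hp5, -⟩ := zpowers_pgroup (y * y) 5 hord
    have hyy1 : y * y ≠ 1 := by
      intro h
      rw [h, orderOf_one] at hord
      norm_num at hord
    exact hu1 (hfree5 _ hp5 _ (Subgroup.mem_zpowers _) hyy1 u hyy)

end Core

/-- [N65] -/
theorem no65 {Q : Type u} [Group Q] [Finite Q] (hQc : ∀ a b : Q, a * b = b * a)
    (hQp : ∀ a : Q, a ^ 3 = 1) (hQ : Nat.card Q = 81)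
    (S : Subgroup (MulAut Q)) (hS : Group.IsSolvable S) (h5 : 5 ∣ Nat.card S)
    (h13 : 13 ∣ Nat.card S) : False := by
  haveI := hS
  obtain ⟨a, k, hk5, hc⟩ :=
    Nat.exists_eq_pow_mul_and_not_dvd (n := Nat.card S) Nat.card_pos.ne' 5 (by norm_num)
  have hkne : k ≠ 0 := by
    rintro rfl
    rw [mul_zero] at hc
    exact Nat.card_pos.ne' hc
  obtain ⟨b, n, hn13, hkn⟩ := Nat.exists_eq_pow_mul_and_not_dvd hkne 13 (by norm_num)
  have hn5 : ¬ 5 ∣ n := fun h => hk5 (hkn ▸ Dvd.dvd.mul_left h _)
  have hcard : Nat.card S = (5 ^ a * 13 ^ b) * n := by rw [hc, hkn, mul_assoc]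
  have hcop : Nat.Coprime (5 ^ a * 13 ^ b) n := by
    apply Nat.Coprime.mul_left
    · exact Nat.Coprime.pow_left a ((Nat.Prime.coprime_iff_not_dvd (by norm_num)).mpr hn5)
    · exact Nat.Coprime.pow_left b ((Nat.Prime.coprime_iff_not_dvd (by norm_num)).mpr hn13)
  obtain ⟨M, hM⟩ := Cfsg.Agent.Lib.Helper91.Hall.hall_exists (5 ^ a * 13 ^ b) n hcard hcop
  have ha0 : a ≠ 0 := by
    rintro rfl
    rw [pow_zero, one_mul] at hc
    exact hk5 (hc ▸ h5)
  have hb0 : b ≠ 0 := by
    rintro rfl
    rw [pow_zero, one_mul] at hkn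
    subst hkn
    rw [hc] at h13
    rcases (Nat.Prime.dvd_mul (by norm_num)).mp h13 with h | h
    · have := Nat.Prime.dvd_of_dvd_pow (by norm_num) h
      norm_num at this
    · exact hn13 h
  refine core (M := ↥M) (S.subtype.comp M.subtype) hQp hQ ?_ ?_ ?_ ?_
  · exact (Subgroup.subtype_injective S).comp (Subgroup.subtype_injective M)
  · rw [hM]
    exact Dvd.dvd.mul_right (dvd_pow_self 5 ha0) _
  · rw [hM]
    exact Dvd.dvd.mul_left (dvd_pow_self 13 hb0) _
  · intro r hr hrd
    rw [hM] at hrd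
    rcases (Nat.Prime.dvd_mul hr).mp hrd with h | h
    · left
      exact (Nat.prime_dvd_prime_iff_eq hr (by norm_num)).mp (hr.dvd_of_dvd_pow h)
    · right
      exact (Nat.prime_dvd_prime_iff_eq hr (by norm_num)).mp (hr.dvd_of_dvd_pow h)

end Cfsg.Agent.Lib.Helper23.No65
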