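import Mathlib
import Cfsg.Agent.H84.PslStmt

/-!
# Piece F1 of S5163: a subgroup normal in `S` is fully normalized in `F_S(G)`
-/

set_option autoImplicit false

namespace Cfsg.Agent.Lib.Helper23.PslF1

open Cfsg

theorem main : Cfsg.Agent.H84.PslStmt.FullyNormalizedOfNormal := by
  intro G _ _ S R hRS hn
  refine ⟨hRS, fun Q _ => ?_⟩
  have h1 : FusionSystem.normalizerIn S R = S := by
    apply le_antisymm
    · exact inf_le_left
    · intro s hs
      refine ⟨hs, ?_⟩
      show s ∈ Subgroup.normalizer (R : Set G)
      rw [Subgroup.mem_normalizer_iff]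
      intro r
      constructor
      · intro hr
        exact hn s hs r hr
      · intro hr
        have h2 := hn s⁻¹ (S.inv_mem hs) _ hr
        have h3 : s⁻¹ * (s * r * s⁻¹) * s⁻¹⁻¹ = r := by group
        rwa [h3] at h2
  rw [h1]
  exact Subgroup.card_le_of_le (inf_le_left : FusionSystem.normalizerIn S Q ≤ S)

end Cfsg.Agent.Lib.Helper23.PslF1
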