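import Mathlib
import Cfsg.Agent.H84.PslStmt

/-!
# Piece F2 of S5163: a subgroup of `S` containing its centralizer in `G` is centric in `F_S(G)`
-/

set_option autoImplicit false

namespace Cfsg.Agent.Lib.Helper23.PslF2

open Cfsg

theorem main : Cfsg.Agent.H84.PslStmt.CentricOfCent := by
  intro G _ S R hRS hc
  refine ⟨hRS, ?_⟩
  rintro Q ⟨φ, ⟨-, -, g, hg⟩, rfl⟩
  intro x hx
  have hxc : x ∈ Subgroup.centralizer ((φ.range : Subgroup G) : Set G) := hx.2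
  rw [Subgroup.mem_centralizer_iff] at hxc
  have hmem : g⁻¹ * x * g ∈ R := by
    apply hc
    intro r hr
    have h1 := hxc (φ ⟨r, hr⟩) ⟨⟨r, hr⟩, rfl⟩
    rw [hg] at h1
    have h2 : g * r * g⁻¹ * x = x * (g * r * g⁻¹) := h1
    calc g⁻¹ * x * g * r = g⁻¹ * (x * (g * r * g⁻¹)) * g := by group
      _ = g⁻¹ * (g * r * g⁻¹ * x) * g := by rw [h2]
      _ = r * (g⁻¹ * x * g) := by group
  refine ⟨⟨g⁻¹ * x * g, hmem⟩, ?_⟩
  rw [hg]
  show g * (g⁻¹ * x * g) * g⁻¹ = x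
  group

end Cfsg.Agent.Lib.Helper23.PslF2
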