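import Mathlib
import Cfsg.Prelude.Def_Transfer
import Cfsg.Prelude.Def_CaseTheorems
import Cfsg.Agent.Lib.Helper24.PGroupBasic
import Cfsg.Agent.Lib.Helper54.UniqueSubgroup
import Cfsg.Agent.Lib.Helper53.ElemAb
import Cfsg.Agent.Lib.Helper53.PGroupBasics

set_option autoImplicit false

open scoped commutatorElement

namespace Cfsg.Agent.Lib.Helper23.RankTwo

open Cfsg.Agent.Lib.Helper24.Alperin Cfsg.Agent.Lib.Helper24.PGroupBasic
open Cfsg.Agent.Lib.Helper53.ElemAb

universe u

variable {G : Type u} [Group G]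

/-- In a finite `p`-group, a strict inclusion of subgroups multiplies the order by at least `p`. -/
theorem mul_card_le_of_lt [Finite G] {p : ℕ} [Fact p.Prime] (hG : IsPGroup p G)
    {H K : Subgroup G} (hHK : H < K) : p * Nat.card H ≤ Nat.card K := by
  have hpr : p.Prime := Fact.out
  obtain ⟨a, ha⟩ := IsPGroup.iff_card.mp (hG.to_subgroup H)
  obtain ⟨b, hb⟩ := IsPGroup.iff_card.mp (hG.to_subgroup K)
  have hlt : Nat.card H < Nat.card K := by
    by_contra hcon
    push Not at hcon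
    exact hHK.ne (Subgroup.eq_of_le_of_card_ge hHK.le hcon)
  rw [ha, hb] at hlt ⊢
  have hab : a < b := (Nat.pow_lt_pow_iff_right hpr.one_lt).mp hlt
  calc p * p ^ a = p ^ (a + 1) := by rw [pow_succ, mul_comm]
    _ ≤ p ^ b := Nat.pow_le_pow_right hpr.pos hab

/-- In a finite `p`-group a subgroup of order greater than `p` has order at least `p ^ 2`. -/
theorem sq_le_card_of_lt [Finite G] {p : ℕ} [Fact p.Prime] (hG : IsPGroup p G)
    (H : Subgroup G) (h : p < Nat.card H) : p ^ 2 ≤ Nat.card H := by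
  have hpr : p.Prime := Fact.out
  obtain ⟨a, ha⟩ := IsPGroup.iff_card.mp (hG.to_subgroup H)
  rw [ha] at h ⊢
  have h1 : 1 < a := by
    have : p ^ 1 < p ^ a := by simpa using h
    exact (Nat.pow_lt_pow_iff_right hpr.one_lt).mp this
  exact Nat.pow_le_pow_right hpr.pos h1

/-- The join of two elementwise commuting elementary abelian subgroups is elementary abelian. -/
theorem elemAb_sup {p : ℕ} {X Y : Subgroup G} (hX : Cfsg.IsElementaryAbelian p X)
    (hY : Cfsg.IsElementaryAbelian p Y) (hXY : ∀ a ∈ X, ∀ b ∈ Y, a * b = b * a) :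
    Cfsg.IsElementaryAbelian p (X ⊔ Y) := by
  have h : X ⊔ Y = Subgroup.closure ((X : Set G) ∪ (Y : Set G)) := by
    rw [Subgroup.closure_union, Subgroup.closure_eq, Subgroup.closure_eq]
  rw [h]
  rw [elemAb_iff] at hX hY
  apply elemAb_closure
  · rintro x (hx | hx) y (hy | hy)
    · exact hX.1 x hx y hy
    · exact hXY x hx y hy
    · exact (hXY y hy x hx).symm
    · exact hY.1 x hx y hy
  · rintro x (hx | hx)
    · exact hX.2 x hx
    · exact hY.2 x hx

/-- `X` lies in an elementary abelian subgroup of order greater than `p ^ 2`. -/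
def Good (p : ℕ) (X : Subgroup G) : Prop :=
  ∃ B : Subgroup G, X ≤ B ∧ Cfsg.IsElementaryAbelian p B ∧ p ^ 2 < Nat.card B

/-- Goodness propagates along commuting elementary abelian subgroups of order at least `p ^ 2`. -/
theorem good_step [Finite G] {p : ℕ} {X Y : Subgroup G} (hX : Cfsg.IsElementaryAbelian p X)
    (hXc : p ^ 2 ≤ Nat.card X) (hY : Cfsg.IsElementaryAbelian p Y) (hYc : p ^ 2 ≤ Nat.card Y)
    (hXY : ∀ a ∈ X, ∀ b ∈ Y, a * b = b * a) (hgood : Good p Y) : Good p X := by
  by_cases hW : p ^ 2 < Nat.card ↥(X ⊔ Y)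
  · exact ⟨X ⊔ Y, le_sup_left, elemAb_sup hX hY hXY, hW⟩
  · push Not at hW
    have h1 : X = X ⊔ Y := Subgroup.eq_of_le_of_card_ge le_sup_left (hW.trans hXc)
    have h2 : Y = X ⊔ Y := Subgroup.eq_of_le_of_card_ge le_sup_right (hW.trans hYc)
    rw [h1, ← h2]
    exact hgood

/-- For an elementary abelian `X`: the centralizer of `X` has `p`-rank greater than `2` iff `X`
lies in an elementary abelian subgroup of order greater than `p ^ 2`. -/
theorem not_pRankLE_centralizer_iff [Finite G] {p : ℕ} {X : Subgroup G}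
    (hX : Cfsg.IsElementaryAbelian p X) :
    ¬ Cfsg.PRankLE p 2 ↥(Subgroup.centralizer (X : Set G)) ↔ Good p X := by
  constructor
  · intro h
    unfold Cfsg.PRankLE at h
    push Not at h
    obtain ⟨A, hA1, hA2, hA3⟩ := h
    have hA : Cfsg.IsElementaryAbelian p A := ⟨hA1, hA2⟩
    have hA' : Cfsg.IsElementaryAbelian p (A.map (Subgroup.centralizer (X : Set G)).subtype) :=
      elemAb_map _ hA
    have hcard : Nat.card ↥(A.map (Subgroup.centralizer (X : Set G)).subtype) = Nat.card A :=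
      Subgroup.card_map_of_injective (Subgroup.subtype_injective _)
    have hcomm : ∀ a ∈ X, ∀ b ∈ A.map (Subgroup.centralizer (X : Set G)).subtype,
        a * b = b * a := by
      rintro a ha _ ⟨b, -, rfl⟩
      exact (Subgroup.mem_centralizer_iff.mp b.2 a ha)
    refine ⟨X ⊔ A.map (Subgroup.centralizer (X : Set G)).subtype, le_sup_left,
      elemAb_sup hX hA' hcomm, ?_⟩
    calc p ^ 2 < Nat.card A := hA3
      _ = Nat.card ↥(A.map (Subgroup.centralizer (X : Set G)).subtype) := hcard.symm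
      _ ≤ _ := Subgroup.card_le_of_le le_sup_right
  · rintro ⟨B, hXB, hB, hBc⟩ h
    have hB' := (elemAb_iff p B).mp hB
    have hBC : B ≤ Subgroup.centralizer (X : Set G) := by
      intro b hb
      rw [Subgroup.mem_centralizer_iff]
      intro x hx
      exact hB'.1 x (hXB hx) b hb
    have hcard : Nat.card ↥(B.subgroupOf (Subgroup.centralizer (X : Set G))) = Nat.card B :=
      Nat.card_congr (Subgroup.subgroupOfEquivOfLe hBC).toEquiv
    have hle := h (B.subgroupOf (Subgroup.centralizer (X : Set G)))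
      (isMulCommutative_iff.mpr (fun x y => Subtype.ext (Subtype.ext
        (hB'.1 x.1.1 x.2 y.1.1 y.2))))
      (fun a ha => Subtype.ext (hB'.2 a.1 ha))
    rw [hcard] at hle
    exact absurd hle (not_le.mpr hBc)

/-- A cyclic subgroup generated by a central element is normal. -/
theorem zpowers_normal_of_mem_center {z : G} (hz : z ∈ Subgroup.center G) :
    (Subgroup.zpowers z).Normal := by
  refine ⟨fun y hy g => ?_⟩
  have hy' : y ∈ Subgroup.center G := (Subgroup.zpowers_le.mpr hz) hy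
  have h := Subgroup.mem_center_iff.mp hy' g
  have : g * y * g⁻¹ = y := by rw [h, mul_inv_cancel_right]
  rw [this]
  exact hy

/-- Let `U` be a normal elementary abelian subgroup of order `p ^ 2` of a finite `p`-group.
Then `C(U)` meets every subgroup `A` in a subgroup of index at most `p`. -/
theorem card_le_mul_card_inf_centralizer [Finite G] {p : ℕ} [Fact p.Prime] (hG : IsPGroup p G)
    (U : Subgroup G) [U.Normal] (hU : Cfsg.IsElementaryAbelian p U) (hUc : Nat.card U = p ^ 2)
    (A : Subgroup G) : Nat.card A ≤ p * Nat.card ↥(A ⊓ Subgroup.centralizer (U : Set G)) := by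
  have hpr : p.Prime := Fact.out
  have hU' := (elemAb_iff p U).mp hU
  have hpp : p < p ^ 2 := by
    have := hpr.one_lt
    nlinarith
  have hUne : U ≠ ⊥ := by
    rintro rfl
    rw [Subgroup.card_bot] at hUc
    have := hpr.one_lt
    omega
  obtain ⟨z, hzU, hz1, hzc⟩ := Cfsg.Agent.Lib.Helper53.PGroupBasics.exists_center_mem_normal hG U hUne
  have hzp : z ^ p = 1 := hU'.2 z hzU
  have hzord : orderOf z = p := orderOf_eq_prime hzp hz1
  have hNn : (Subgroup.zpowers z).Normal := zpowers_normal_of_mem_center hzc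
  have hNc : Nat.card (Subgroup.zpowers z) = p := by rw [Nat.card_zpowers, hzord]
  have hUN : ¬ U ≤ Subgroup.zpowers z := by
    intro h
    have := Subgroup.card_le_of_le h
    rw [hUc, hNc] at this
    omega
  have hGnil : Group.IsNilpotent G := hG.isNilpotent
  have hnil : Group.IsNilpotent (⊤ : Subgroup G) := inferInstance
  obtain ⟨u, huU, huN, hut⟩ := exists_commutator_mem hnil (le_top : U ≤ ⊤)
    (by rw [Subgroup.normalizer_eq_top]) hUN
  have hu : ∀ t, ⁅u, t⁆ ∈ Subgroup.zpowers z := fun t => hut t (Subgroup.mem_top t)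
  have hUeq : Subgroup.zpowers z ⊔ Subgroup.zpowers u = U := by
    apply Subgroup.eq_of_le_of_card_ge
      (sup_le (Subgroup.zpowers_le.mpr hzU) (Subgroup.zpowers_le.mpr huU))
    rw [card_sup_zpowers huN (hU'.2 u huU), hNc, hUc, sq]
  let f : G →* Subgroup.zpowers z :=
    { toFun := fun t => ⟨⁅u, t⁆, hu t⟩
      map_one' := by
        apply Subtype.ext
        simp
      map_mul' := by
        intro s t
        apply Subtype.ext
        have hc : ∀ x, ⁅u, t⁆ * x = x * ⁅u, t⁆ := fun x =>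
          (Subgroup.mem_center_iff.mp ((Subgroup.zpowers_le.mpr hzc) (hu t)) x).symm
        show ⁅u, s * t⁆ = ⁅u, s⁆ * ⁅u, t⁆
        have e1 : ⁅u, s * t⁆ = u * s * u⁻¹ * ⁅u, t⁆ * s⁻¹ := by
          simp only [commutatorElement_def]; group
        rw [e1, mul_assoc (u * s * u⁻¹), hc, ← mul_assoc]
        rfl }
  let g : A →* Subgroup.zpowers z := f.comp A.subtype
  have h1 : Nat.card A = Nat.card g.ker * Nat.card g.range := by
    rw [← Subgroup.index_ker, Subgroup.card_mul_index]
  have h2 : Nat.card g.range ≤ p := by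
    have := Subgroup.card_le_card_group g.range
    rwa [hNc] at this
  have h3 : Nat.card g.ker ≤ Nat.card ↥(A ⊓ Subgroup.centralizer (U : Set G)) := by
    have hle : g.ker.map A.subtype ≤ A ⊓ Subgroup.centralizer (U : Set G) := by
      rintro _ ⟨a, ha, rfl⟩
      refine ⟨a.2, ?_⟩
      have ha1 : ⁅u, (a : G)⁆ = 1 := by
        have := MonoidHom.mem_ker.mp ha
        exact congrArg Subtype.val this
      rw [commutatorElement_eq_one_iff_mul_comm] at ha1
      have hle2 : U ≤ Subgroup.centralizer ({(a : G)} : Set G) := by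
        rw [← hUeq]
        apply sup_le
        · rw [Subgroup.zpowers_le, Subgroup.mem_centralizer_iff]
          intro h hh
          rw [Set.mem_singleton_iff.mp hh]
          exact (Subgroup.mem_center_iff.mp hzc _)
        · rw [Subgroup.zpowers_le, Subgroup.mem_centralizer_iff]
          intro h hh
          rw [Set.mem_singleton_iff.mp hh]
          exact ha1.symm
      refine Subgroup.mem_centralizer_iff.mpr ?_
      intro h hh
      have := Subgroup.mem_centralizer_iff.mp (hle2 hh) (a : G) (Set.mem_singleton _)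
      exact this.symm
    calc Nat.card g.ker = Nat.card ↥(g.ker.map A.subtype) :=
          (Subgroup.card_map_of_injective (Subgroup.subtype_injective _)).symm
      _ ≤ _ := Subgroup.card_le_of_le hle
  calc Nat.card A = Nat.card g.ker * Nat.card g.range := h1
    _ ≤ Nat.card ↥(A ⊓ Subgroup.centralizer (U : Set G)) * p := Nat.mul_le_mul h3 h2
    _ = p * _ := mul_comm _ _

/-- A normal elementary abelian subgroup of order `p ^ 2` in a finite `p`-group of `p`-rank at
least `3` lies in an elementary abelian subgroup of order greater than `p ^ 2`. -/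
theorem good_of_normal [Finite G] {p : ℕ} [Fact p.Prime] (hG : IsPGroup p G)
    (U : Subgroup G) [U.Normal] (hU : Cfsg.IsElementaryAbelian p U) (hUc : Nat.card U = p ^ 2)
    (E : Subgroup G) (hE : Cfsg.IsElementaryAbelian p E) (hEc : p ^ 2 < Nat.card E) :
    Good p U := by
  have hpr : p.Prime := Fact.out
  have hE' := (elemAb_iff p E).mp hE
  by_cases hUE : U ≤ E
  · exact ⟨E, hUE, hE, hEc⟩
  have hcard := card_le_mul_card_inf_centralizer hG U hU hUc E
  have hB₀c : p < Nat.card ↥(E ⊓ Subgroup.centralizer (U : Set G)) := by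
    by_contra hcon
    push Not at hcon
    have : p * Nat.card ↥(E ⊓ Subgroup.centralizer (U : Set G)) ≤ p * p :=
      Nat.mul_le_mul_left p hcon
    nlinarith
  have hB₀ : Cfsg.IsElementaryAbelian p (E ⊓ Subgroup.centralizer (U : Set G)) :=
    elemAb_of_le hE inf_le_left
  have hcomm : ∀ a ∈ E ⊓ Subgroup.centralizer (U : Set G), ∀ b ∈ U, a * b = b * a := by
    intro a ha b hb
    exact (Subgroup.mem_centralizer_iff.mp ha.2 b hb).symm
  refine ⟨(E ⊓ Subgroup.centralizer (U : Set G)) ⊔ U, le_sup_right, elemAb_sup hB₀ hU hcomm, ?_⟩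
  have hlt : E ⊓ Subgroup.centralizer (U : Set G) < (E ⊓ Subgroup.centralizer (U : Set G)) ⊔ U := by
    refine lt_of_le_of_ne le_sup_left (fun h => hUE ?_)
    have : U ≤ E ⊓ Subgroup.centralizer (U : Set G) := by
      rw [h]; exact le_sup_right
    exact this.trans inf_le_left
  have := mul_card_le_of_lt hG hlt
  have h2 : p * p < p * Nat.card ↥(E ⊓ Subgroup.centralizer (U : Set G)) :=
    Nat.mul_lt_mul_of_pos_left hB₀c hpr.pos
  rw [sq]
  omega

/-- The elements of exponent dividing `n` in a commutative subgroup. -/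
def omega (A : Subgroup G) (hA : ∀ a ∈ A, ∀ b ∈ A, a * b = b * a) (n : ℕ) : Subgroup G where
  carrier := {a | a ∈ A ∧ a ^ n = 1}
  one_mem' := ⟨A.one_mem, one_pow n⟩
  mul_mem' := by
    rintro a b ⟨ha, ha'⟩ ⟨hb, hb'⟩
    refine ⟨A.mul_mem ha hb, ?_⟩
    rw [(show Commute a b from hA a ha b hb).mul_pow, ha', hb', one_mul]
  inv_mem' := by
    rintro a ⟨ha, ha'⟩
    exact ⟨A.inv_mem ha, by rw [inv_pow, ha', inv_one]⟩

theorem omega_normal (A : Subgroup G) [hAn : A.Normal] (hA : ∀ a ∈ A, ∀ b ∈ A, a * b = b * a)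
    (n : ℕ) : (omega A hA n).Normal := by
  refine ⟨fun a ha g => ⟨hAn.conj_mem a ha.1 g, ?_⟩⟩
  rw [conj_pow, ha.2, mul_one, mul_inv_cancel]

/-- A subgroup larger than a finite set has an element outside it. -/
theorem exists_mem_not_mem_finset [Finite G] (E : Subgroup G) (S : Finset G)
    (h : S.card < Nat.card E) : ∃ e ∈ E, e ∉ S := by
  by_contra hcon
  push Not at hcon
  have hsub : (E : Set G) ⊆ (S : Set G) := fun e he => hcon e he
  have h1 : Nat.card E = (E : Set G).ncard := Nat.card_coe_set_eq (E : Set G)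
  have h2 := Set.ncard_le_ncard hsub (Finset.finite_toSet S)
  rw [Set.ncard_coe_finset] at h2
  omega

/-- A `2`-element whose square is nontrivial has a power of order `4`. -/
theorem exists_pow_order_four (hG : IsPGroup 2 G) (w : G) (hw : w ^ 2 ≠ 1) :
    ∃ w', (∃ j : ℕ, w' = w ^ j) ∧ w' ^ 4 = 1 ∧ w' ^ 2 ≠ 1 := by
  classical
  have hex : ∃ k : ℕ, w ^ 2 ^ k = 1 := hG w
  have hk := Nat.find_spec hex
  have hmin := fun m => Nat.find_min hex (m := m)
  have h2 : 2 ≤ Nat.find hex := by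
    by_contra hlt
    push Not at hlt
    have : Nat.find hex = 0 ∨ Nat.find hex = 1 := by omega
    rcases this with h | h
    · rw [h] at hk
      apply hw
      simp only [pow_zero, pow_one] at hk
      rw [hk, one_pow]
    · rw [h] at hk
      apply hw
      simpa using hk
  obtain ⟨n, hn⟩ : ∃ n, Nat.find hex = n + 2 := ⟨Nat.find hex - 2, by omega⟩
  refine ⟨w ^ 2 ^ n, ⟨_, rfl⟩, ?_, ?_⟩
  · rw [← pow_mul, show 2 ^ n * 4 = 2 ^ (n + 2) by ring, ← hn]
    exact hk
  · rw [← pow_mul, show 2 ^ n * 2 = 2 ^ (n + 1) by ring]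
    exact hmin (n + 1) (by omega)

/-- A finite `2`-group containing an elementary abelian subgroup of order greater than `4` has
a normal four-subgroup. -/
theorem exists_normal_four [Finite G] (hG : IsPGroup 2 G) (E : Subgroup G)
    (hEe : ∀ a ∈ E, a ^ 2 = 1) (hEc : 4 < Nat.card E) :
    ∃ V : Subgroup G, V.Normal ∧ Cfsg.IsElementaryAbelian 2 V ∧ Nat.card V = 4 := by
  classical
  have hF2 : Fact (Nat.Prime 2) := ⟨Nat.prime_two⟩
  have hGnil : Group.IsNilpotent G := hG.isNilpotent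
  obtain ⟨A, ⟨hAn, hAc⟩, -, hAmax⟩ := exists_maximal_subgroup
    (fun A : Subgroup G => A.Normal ∧ ∀ a ∈ A, ∀ b ∈ A, a * b = b * a) ⊥
    ⟨inferInstance, by
      intro a ha b hb
      rw [Subgroup.mem_bot] at ha hb
      rw [ha, hb]⟩
  have hCA : Subgroup.centralizer (A : Set G) = A :=
    centralizer_eq_of_max_normal_abelian A hAc (fun M hMn hMc hAM => hAmax M ⟨hMn, hMc⟩ hAM)
  have hΩn : (omega A hAc 2).Normal := omega_normal A hAc 2
  have hΩe : ∀ a ∈ omega A hAc 2, a ^ 2 = 1 := fun a ha => ha.2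
  have hΩA : omega A hAc 2 ≤ A := fun a ha => ha.1
  by_cases hΩc : 2 ^ 2 ≤ Nat.card (omega A hAc 2)
  · obtain ⟨B, hBn, hBΩ, hBc⟩ := exists_normal_le_card hG (omega A hAc 2) hΩe 2 hΩc
    refine ⟨B, hBn, ?_, by rw [hBc]; norm_num⟩
    rw [elemAb_iff]
    exact ⟨fun x hx y hy => hAc x (hΩA (hBΩ hx)) y (hΩA (hBΩ hy)), fun x hx => hΩe x (hBΩ hx)⟩
  push Not at hΩc
  have hΩ2 : Nat.card (omega A hAc 2) ≤ 2 := by
    obtain ⟨k, hk⟩ := IsPGroup.iff_card.mp (hG.to_subgroup (omega A hAc 2))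
    rw [hk] at hΩc ⊢
    have : k < 2 := (Nat.pow_lt_pow_iff_right (by norm_num)).mp hΩc
    interval_cases k <;> simp
  have hAne : A ≠ ⊥ := by
    intro h
    rw [h] at hCA
    have htop : (⊤ : Subgroup G) = ⊥ := by
      rw [← hCA]
      symm
      rw [eq_top_iff]
      intro x _
      refine Subgroup.mem_centralizer_iff.mpr ?_
      intro y hy
      have hy1 : y = 1 := by simpa using hy
      rw [hy1, one_mul, mul_one]
    have := Subgroup.card_le_of_le (le_top : E ≤ ⊤)
    rw [htop, Subgroup.card_bot] at this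
    omega
  obtain ⟨a₀, ha₀A, ha₀1⟩ : ∃ a ∈ A, a ≠ 1 := by
    by_contra hcon
    push Not at hcon
    exact hAne ((Subgroup.eq_bot_iff_forall A).mpr hcon)
  obtain ⟨m, hm1, hm2⟩ := Cfsg.Agent.Lib.Helper54.UniqueSubgroup.exists_pow_prime hG ha₀1
  obtain ⟨z, hz⟩ : ∃ z, z = a₀ ^ m := ⟨_, rfl⟩
  rw [← hz] at hm1 hm2
  have hzA : z ∈ A := by rw [hz]; exact A.pow_mem ha₀A m
  have hz1 : z ≠ 1 := hm1
  have hz2 : z ^ 2 = 1 := hm2
  have hzord : orderOf z = 2 := orderOf_eq_prime hz2 hz1
  have hΩeq : Subgroup.zpowers z = omega A hAc 2 := by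
    have hzΩ : z ∈ omega A hAc 2 := ⟨hzA, hz2⟩
    apply Subgroup.eq_of_le_of_card_ge (Subgroup.zpowers_le.mpr hzΩ)
    rw [Nat.card_zpowers, hzord]
    exact hΩ2
  have huniq : ∀ a ∈ A, a ^ 2 = 1 → a = 1 ∨ a = z := by
    intro a ha ha2
    have : a ∈ Subgroup.zpowers z := by rw [hΩeq]; exact ⟨ha, ha2⟩
    obtain ⟨k, rfl⟩ := Subgroup.mem_zpowers_iff.mp this
    rcases Int.even_or_odd k with ⟨j, rfl⟩ | ⟨j, rfl⟩
    · left
      rw [← two_mul, zpow_mul, zpow_ofNat, hz2, one_zpow]
    · right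
      rw [zpow_add, zpow_mul, zpow_ofNat, hz2, one_zpow, one_mul, zpow_one]
  have hzc : z ∈ Subgroup.center G := by
    rw [Subgroup.mem_center_iff]
    intro g
    have h1 : g * z * g⁻¹ ∈ A := hAn.conj_mem z hzA g
    have h2 : (g * z * g⁻¹) ^ 2 = 1 := by rw [conj_pow, hz2, mul_one, mul_inv_cancel]
    rcases huniq _ h1 h2 with h | h
    · exfalso
      apply hz1
      have : z = g⁻¹ * (g * z * g⁻¹) * g := by group
      rw [this, h]
      group
    · calc g * z = g * z * g⁻¹ * g := by group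
        _ = z * g := by rw [h]
  have hzc' : ∀ t, t * z = z * t := fun t => Subgroup.mem_center_iff.mp hzc t
  have hAp : IsPGroup 2 A := hG.to_subgroup A
  have hUI : Cfsg.Agent.Lib.Helper54.UniqueSubgroup.UI 2 A := by
    intro g h hg hh hg1
    have hg' : (g : G) ^ 2 = 1 := by exact_mod_cast congrArg Subtype.val hg
    have hh' : (h : G) ^ 2 = 1 := by exact_mod_cast congrArg Subtype.val hh
    have hg1' : (g : G) ≠ 1 := fun h0 => hg1 (Subtype.ext h0)
    have hgz : (g : G) = z := (huniq _ g.2 hg').resolve_left hg1'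
    rcases huniq _ h.2 hh' with h1 | h1
    · have : h = 1 := Subtype.ext h1
      rw [this]
      exact Subgroup.one_mem _
    · have : h = g := Subtype.ext (by rw [h1, hgz])
      rw [this]
      exact Subgroup.mem_zpowers g
  have hAcyc : IsCyclic A := Cfsg.Agent.Lib.Helper54.UniqueSubgroup.isCyclic_of_comm hAp hUI
    (fun x y => Subtype.ext (hAc x x.2 y y.2))
  obtain ⟨c, hc⟩ := hAcyc.exists_generator
  have hcgen : ∀ a ∈ A, ∃ k : ℤ, a = (c : G) ^ k := by
    intro a ha
    obtain ⟨k, hk⟩ := Subgroup.mem_zpowers_iff.mp (hc ⟨a, ha⟩)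
    refine ⟨k, ?_⟩
    have := congrArg Subtype.val hk
    simpa using this.symm
  have hconj : ∀ x : G, ∃ k : ℤ, x * (c : G) * x⁻¹ = (c : G) ^ k :=
    fun x => hcgen _ (hAn.conj_mem _ c.2 x)
  have hcommA : ∀ x y : G, x⁻¹ * y⁻¹ * x * y ∈ A := by
    intro x y
    obtain ⟨k, hk⟩ := hconj x
    obtain ⟨l, hl⟩ := hconj y
    have h1 : (x * y) * (c : G) * (x * y)⁻¹ = (c : G) ^ (l * k) := by
      calc (x * y) * (c : G) * (x * y)⁻¹ = x * (y * c * y⁻¹) * x⁻¹ := by group
        _ = x * (c : G) ^ l * x⁻¹ := by rw [hl]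
        _ = (x * c * x⁻¹) ^ l := by rw [conj_zpow]
        _ = ((c : G) ^ k) ^ l := by rw [hk]
        _ = (c : G) ^ (l * k) := by rw [← zpow_mul, mul_comm]
    have h2 : (y * x) * (c : G) * (y * x)⁻¹ = (c : G) ^ (l * k) := by
      calc (y * x) * (c : G) * (y * x)⁻¹ = y * (x * c * x⁻¹) * y⁻¹ := by group
        _ = y * (c : G) ^ k * y⁻¹ := by rw [hk]
        _ = (y * c * y⁻¹) ^ k := by rw [conj_zpow]
        _ = ((c : G) ^ l) ^ k := by rw [hl]
        _ = (c : G) ^ (l * k) := by rw [← zpow_mul]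
    have h3 : (x⁻¹ * y⁻¹ * x * y) * (c : G) * (x⁻¹ * y⁻¹ * x * y)⁻¹ = (c : G) := by
      calc (x⁻¹ * y⁻¹ * x * y) * (c : G) * (x⁻¹ * y⁻¹ * x * y)⁻¹
          = (y * x)⁻¹ * ((x * y) * (c : G) * (x * y)⁻¹) * (y * x) := by group
        _ = (y * x)⁻¹ * ((y * x) * (c : G) * (y * x)⁻¹) * (y * x) := by rw [h1, ← h2]
        _ = (c : G) := by group
    have h4 : (x⁻¹ * y⁻¹ * x * y) * (c : G) = (c : G) * (x⁻¹ * y⁻¹ * x * y) :=
      mul_inv_eq_iff_eq_mul.mp h3
    have h5 : x⁻¹ * y⁻¹ * x * y ∈ Subgroup.centralizer (A : Set G) := by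
      refine Subgroup.mem_centralizer_iff.mpr ?_
      intro a ha
      obtain ⟨j, rfl⟩ := hcgen a ha
      exact ((Commute.zpow_right (show Commute (x⁻¹ * y⁻¹ * x * y) (c : G) from h4) j).eq).symm
    rwa [hCA] at h5
  have hEA : ∀ e ∈ E, e ∈ A → e = 1 ∨ e = z := fun e he heA => huniq e heA (hEe e he)
  obtain ⟨e₁, he₁E, he₁⟩ : ∃ e ∈ E, e ∉ ({1, z} : Finset G) :=
    exists_mem_not_mem_finset E _ (lt_of_le_of_lt Finset.card_le_two (by omega))
  obtain ⟨e₂, he₂E, he₂⟩ : ∃ e ∈ E, e ∉ ({1, z, e₁, e₁ * z} : Finset G) :=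
    exists_mem_not_mem_finset E _ (lt_of_le_of_lt Finset.card_le_four hEc)
  have he₁A : e₁ ∉ A := fun h => by
    rcases hEA e₁ he₁E h with h1 | h1 <;> exact he₁ (by rw [h1]; simp)
  have he₂A : e₂ ∉ A := fun h => by
    rcases hEA e₂ he₂E h with h1 | h1 <;> exact he₂ (by rw [h1]; simp)
  have he₁₂A : e₁ * e₂ ∉ A := fun h => by
    have he₁sq : e₁ * e₁ = 1 := by rw [← sq]; exact hEe e₁ he₁E
    rcases hEA (e₁ * e₂) (E.mul_mem he₁E he₂E) h with h1 | h1
    · have : e₂ = e₁ := by
        calc e₂ = e₁ * e₁ * e₂ := by rw [he₁sq, one_mul]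
          _ = e₁ * (e₁ * e₂) := by group
          _ = e₁ := by rw [h1, mul_one]
      exact he₂ (by rw [this]; simp)
    · have : e₂ = e₁ * z := by
        calc e₂ = e₁ * e₁ * e₂ := by rw [he₁sq, one_mul]
          _ = e₁ * (e₁ * e₂) := by group
          _ = e₁ * z := by rw [h1]
      exact he₂ (by rw [this]; simp)
  obtain ⟨e, heE, heA, hecent⟩ : ∃ e ∈ E, e ∉ A ∧ ∀ a ∈ A, a ^ 4 = 1 → e * a * e⁻¹ = a := by
    by_cases hd : ∃ d ∈ A, d ^ 4 = 1 ∧ d ^ 2 ≠ 1
    · obtain ⟨d, hdA, hd4, hd2⟩ := hd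
      have hd2z : d ^ 2 = z :=
        (huniq _ (A.pow_mem hdA 2) (by rw [← pow_mul]; exact hd4)).resolve_left hd2
      have hΩ₂ : ∀ a ∈ A, a ^ 4 = 1 → a = 1 ∨ a = z ∨ a = d ∨ a = z * d := by
        intro a ha ha4
        rcases huniq _ (A.pow_mem ha 2) (by rw [← pow_mul]; exact ha4) with h | h
        · rcases huniq a ha h with h' | h'
          · exact Or.inl h'
          · exact Or.inr (Or.inl h')
        · have h1 : (a * d⁻¹) ^ 2 = 1 := by
            rw [(show Commute a d⁻¹ from hAc a ha d⁻¹ (A.inv_mem hdA)).mul_pow, h, inv_pow,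
              hd2z, mul_inv_cancel]
          rcases huniq _ (A.mul_mem ha (A.inv_mem hdA)) h1 with h' | h'
          · right; right; left
            exact mul_inv_eq_one.mp h'
          · right; right; right
            exact mul_inv_eq_iff_eq_mul.mp h'
      have hdconj : ∀ x : G, x * d * x⁻¹ = d ∨ x * d * x⁻¹ = z * d := by
        intro x
        have h1 : x * d * x⁻¹ ∈ A := hAn.conj_mem d hdA x
        have h2 : (x * d * x⁻¹) ^ 2 = z := by
          rw [conj_pow, hd2z, hzc' x, mul_inv_cancel_right]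
        have h4 : (x * d * x⁻¹) ^ 4 = 1 := by
          rw [conj_pow, hd4, mul_one, mul_inv_cancel]
        rcases hΩ₂ _ h1 h4 with h | h | h | h
        · exfalso; rw [h, one_pow] at h2; exact hz1 h2.symm
        · exfalso; rw [h, hz2] at h2; exact hz1 h2.symm
        · exact Or.inl h
        · exact Or.inr h
      have hcent_of : ∀ x : G, x * d * x⁻¹ = d → ∀ a ∈ A, a ^ 4 = 1 → x * a * x⁻¹ = a := by
        intro x hx a ha ha4
        have hzx : x * z * x⁻¹ = z := by rw [hzc' x, mul_inv_cancel_right]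
        rcases hΩ₂ a ha ha4 with h | h | h | h
        · rw [h]; group
        · rw [h]; exact hzx
        · rw [h]; exact hx
        · rw [h]
          calc x * (z * d) * x⁻¹ = (x * z * x⁻¹) * (x * d * x⁻¹) := by group
            _ = z * d := by rw [hzx, hx]
      rcases hdconj e₁ with h1 | h1
      · exact ⟨e₁, he₁E, he₁A, hcent_of e₁ h1⟩
      · rcases hdconj e₂ with h2 | h2
        · exact ⟨e₂, he₂E, he₂A, hcent_of e₂ h2⟩
        · refine ⟨e₁ * e₂, E.mul_mem he₁E he₂E, he₁₂A, hcent_of _ ?_⟩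
          calc e₁ * e₂ * d * (e₁ * e₂)⁻¹ = e₁ * (e₂ * d * e₂⁻¹) * e₁⁻¹ := by group
            _ = e₁ * (z * d) * e₁⁻¹ := by rw [h2]
            _ = (e₁ * z * e₁⁻¹) * (e₁ * d * e₁⁻¹) := by group
            _ = z * (z * d) := by rw [h1, hzc' e₁, mul_inv_cancel_right]
            _ = d := by rw [← mul_assoc, ← sq, hz2, one_mul]
    · push Not at hd
      refine ⟨e₁, he₁E, he₁A, fun a ha ha4 => ?_⟩
      have ha2 : a ^ 2 = 1 := hd a ha ha4
      rcases huniq a ha ha2 with h | h
      · rw [h]; group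
      · rw [h, hzc' e₁, mul_inv_cancel_right]
  have he2 : e * e = 1 := by rw [← sq]; exact hEe e heE
  have heinv : e⁻¹ = e := inv_eq_of_mul_eq_one_right he2
  have hw : ∀ a ∈ A, (a⁻¹ * (e * a * e⁻¹)) ^ 2 = 1 := by
    intro a ha
    obtain ⟨w, hw⟩ : ∃ w, w = a⁻¹ * (e * a * e⁻¹) := ⟨_, rfl⟩
    rw [← hw]
    have hwA : w ∈ A := by
      rw [hw]
      exact A.mul_mem (A.inv_mem ha) (hAn.conj_mem a ha e)
    have hwinv : e * w * e⁻¹ = w⁻¹ := by
      calc e * w * e⁻¹ = (e * a * e⁻¹)⁻¹ * ((e * e) * a * (e * e)⁻¹) := by rw [hw]; group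
        _ = (e * a * e⁻¹)⁻¹ * a := by rw [he2]; group
        _ = w⁻¹ := by rw [hw]; group
    by_contra hw2
    obtain ⟨w', ⟨j, rfl⟩, hw'4, hw'2⟩ := exists_pow_order_four hG w hw2
    have h1 : e * w ^ j * e⁻¹ = w ^ j := hecent _ (A.pow_mem hwA j) hw'4
    have h2 : e * w ^ j * e⁻¹ = (w ^ j)⁻¹ := by rw [← conj_pow, hwinv, inv_pow]
    apply hw'2
    rw [h1] at h2
    rw [sq]
    nth_rewrite 1 [h2]
    rw [inv_mul_cancel]
  have hwz : ∀ a ∈ A, e * a * e⁻¹ = a ∨ e * a * e⁻¹ = a * z := by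
    intro a ha
    have hwA : a⁻¹ * (e * a * e⁻¹) ∈ A := A.mul_mem (A.inv_mem ha) (hAn.conj_mem a ha e)
    rcases huniq _ hwA (hw a ha) with h | h
    · left
      exact (inv_mul_eq_one.mp h).symm
    · right
      exact inv_mul_eq_iff_eq_mul.mp h
  have hek : ∀ t : G, ⁅e, t⁆ ∈ Subgroup.zpowers z := by
    intro t
    have hbA : ⁅e, t⁆ ∈ A := by
      have := hcommA e⁻¹ t⁻¹
      simpa [commutatorElement_def] using this
    obtain ⟨b, hb⟩ : ∃ b, b = ⁅e, t⁆ := ⟨_, rfl⟩
    rw [← hb] at hbA ⊢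
    have h1 : t * e * t⁻¹ = b⁻¹ * e := by
      rw [hb, commutatorElement_def]; group
    have h2 : (t * e * t⁻¹) * (t * e * t⁻¹) = 1 := by
      calc (t * e * t⁻¹) * (t * e * t⁻¹) = t * (e * e) * t⁻¹ := by group
        _ = 1 := by rw [he2]; group
    rw [h1] at h2
    have h3 : b⁻¹ * e = e * b := by
      have := eq_inv_of_mul_eq_one_left h2
      rw [this, mul_inv_rev, inv_inv, heinv]
    have hbinv : e * b * e⁻¹ = b⁻¹ := by rw [← h3]; group
    have hb2 : b ^ 2 = 1 := by
      rcases hwz b hbA with h | h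
      · rw [hbinv] at h
        rw [sq]
        nth_rewrite 1 [← h]
        rw [inv_mul_cancel]
      · exfalso
        rw [hbinv] at h
        have e1 : b ^ 2 = z⁻¹ := by
          have : b * (b * z) = 1 := by rw [← h, mul_inv_cancel]
          rw [sq]
          exact eq_inv_of_mul_eq_one_left (by rw [mul_assoc]; exact this)
        have hb4 : b ^ 4 = 1 := by
          rw [show 4 = 2 * 2 from rfl, pow_mul, e1, inv_pow, hz2, inv_one]
        have h5 := hecent b hbA hb4
        rw [hbinv] at h5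
        rw [h5] at h
        have : b * z = b * 1 := by rw [mul_one]; exact h.symm
        exact hz1 (mul_left_cancel this)
    rcases huniq b hbA hb2 with h | h
    · rw [h]; exact Subgroup.one_mem _
    · rw [h]; exact Subgroup.mem_zpowers z
  have hzn : (Subgroup.zpowers z).Normal := zpowers_normal_of_mem_center hzc
  have heN : e ∉ Subgroup.zpowers z := fun h => heA ((Subgroup.zpowers_le.mpr hzA) h)
  have hVn : (Subgroup.zpowers z ⊔ Subgroup.zpowers e).Normal :=
    normal_of_le_sup_zpowers hek le_sup_left le_rfl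
  have hVc : Nat.card ↥(Subgroup.zpowers z ⊔ Subgroup.zpowers e) = 4 := by
    rw [card_sup_zpowers heN (hEe e heE), Nat.card_zpowers, hzord]
  have hVe : Cfsg.IsElementaryAbelian 2 (Subgroup.zpowers z ⊔ Subgroup.zpowers e) := by
    have h : Subgroup.zpowers z ⊔ Subgroup.zpowers e = Subgroup.closure ({z, e} : Set G) := by
      rw [Subgroup.zpowers_eq_closure, Subgroup.zpowers_eq_closure, ← Subgroup.closure_union]
      rfl
    rw [h]
    apply elemAb_closure
    · intro x hx y hy
      rcases hx with rfl | hx <;> rcases hy with rfl | hy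
      · rfl
      · rw [Set.mem_singleton_iff.mp hy]; exact (hzc' e).symm
      · rw [Set.mem_singleton_iff.mp hx]; exact hzc' e
      · rw [Set.mem_singleton_iff.mp hx, Set.mem_singleton_iff.mp hy]
    · intro x hx
      rcases hx with rfl | hx
      · exact hz2
      · rw [Set.mem_singleton_iff.mp hx]; exact hEe e heE
  exact ⟨_, hVn, hVe, hVc⟩

/-- A finite `p`-group containing an elementary abelian subgroup of order greater than `p ^ 2`
has a normal elementary abelian subgroup of order `p ^ 2`. -/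
theorem exists_normal_elemAb_sq [Finite G] {p : ℕ} [Fact p.Prime] (hG : IsPGroup p G)
    (E : Subgroup G) (hE : Cfsg.IsElementaryAbelian p E) (hEc : p ^ 2 < Nat.card E) :
    ∃ U : Subgroup G, U.Normal ∧ Cfsg.IsElementaryAbelian p U ∧ Nat.card U = p ^ 2 := by
  have hE' := (elemAb_iff p E).mp hE
  by_cases hp : p = 2
  · subst hp
    obtain ⟨V, hVn, hVe, hVc⟩ := exists_normal_four hG E hE'.2 (by norm_num at hEc; exact hEc)
    exact ⟨V, hVn, hVe, by rw [hVc]; norm_num⟩
  · obtain ⟨A, ⟨hAn, hAc, hAe⟩, -, hAmax⟩ := exists_maximal_subgroup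
      (fun A : Subgroup G => A.Normal ∧ (∀ a ∈ A, ∀ b ∈ A, a * b = b * a) ∧ ∀ a ∈ A, a ^ p = 1) ⊥
      ⟨inferInstance, by
        intro a ha b hb
        rw [Subgroup.mem_bot] at ha hb
        rw [ha, hb], by
        intro a ha
        rw [Subgroup.mem_bot] at ha
        rw [ha, one_pow]⟩
    have hAcard : p ^ 2 < Nat.card A := by
      by_contra hcon
      push Not at hcon
      have := card_le_of_max_normal_elementary hp hG A hAc hAe
        (fun B hBn hBc hBe hAB => hAmax B ⟨hBn, hBc, hBe⟩ hAB) hcon E hE'.1 hE'.2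
      omega
    obtain ⟨B, hBn, hBA, hBc⟩ := exists_normal_le_card hG A hAe 2 hAcard.le
    exact ⟨B, hBn, (elemAb_iff p B).mpr
      ⟨fun x hx y hy => hAc x (hBA hx) y (hBA hy), fun x hx => hAe x (hBA hx)⟩, hBc⟩

end Cfsg.Agent.Lib.Helper23.RankTwo
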