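import Mathlib
import Cfsg.Agent.S0144
import Cfsg.Agent.S4071

/-!
Groups all of whose Sylow subgroups are self-normalizing.

`isPGroup_of_normal_index`: Frattini argument -- a proper normal subgroup of `p`-power index
forces `G` to be a `p`-group.
`main`: modulo the Glauberman `K_∞` transfer theorem (hypothesis `h1991`, the statement of S1991),
a finite group with all Sylow subgroups self-normalizing has prime power order.
-/

set_option autoImplicit false

namespace Cfsg.Agent.Lib.Helper23.SelfNorm

open Subgroup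

theorem isPGroup_of_normal_index {G : Type*} [Group G] [Finite G]
    (h : ∀ q : ℕ, q.Prime → q ∣ Nat.card G → ∀ Q : Sylow q G,
      Subgroup.normalizer ((Q : Subgroup G) : Set G) = Q)
    (M : Subgroup G) [M.Normal] (hM : M ≠ ⊤) (p : ℕ) (hp : p.Prime) (k : ℕ)
    (hidx : M.index = p ^ k) : IsPGroup p G := by
  have hcard : Nat.card G = Nat.card M * p ^ k := by
    rw [← hidx]; exact (Subgroup.card_mul_index M).symm
  have huniq : ∀ {r : ℕ}, r.Prime → r ∣ Nat.card G → r = p := by
    intro r hr hrG
    by_contra hrp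
    haveI : Fact r.Prime := ⟨hr⟩
    obtain ⟨P⟩ : Nonempty (Sylow r M) := inferInstance
    have hfac : (Nat.card G).factorization r = (Nat.card M).factorization r := by
      rw [hcard, Nat.factorization_mul Nat.card_pos.ne' (pow_ne_zero _ hp.pos.ne'),
        Nat.Prime.factorization_pow hp]
      simp [Ne.symm hrp]
    have hPcard : Nat.card ((P : Subgroup M).map M.subtype) =
        r ^ (Nat.card G).factorization r := by
      rw [hfac, ← P.card_eq_multiplicity]
      exact Subgroup.card_map_of_injective M.subtype_injective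
    have hQ := h r hr hrG (Sylow.ofCard _ hPcard)
    rw [Sylow.coe_ofCard] at hQ
    have hF := Sylow.normalizer_sup_eq_top P
    rw [hQ] at hF
    have hle : (P : Subgroup M).map M.subtype ≤ M := Subgroup.map_subtype_le _
    rw [sup_of_le_right hle] at hF
    exact hM hF
  have := Nat.eq_prime_pow_of_unique_prime_dvd (Nat.card_pos (α := G)).ne' huniq
  exact IsPGroup.of_card this

theorem card_eq_two_pow_mul_three_pow {n : ℕ} (hn : n ≠ 0)
    (h : ∀ p : ℕ, p.Prime → p ∣ n → p < 5) : ∃ a b : ℕ, n = 2 ^ a * 3 ^ b := by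
  refine ⟨n.factorization 2, (n / 2 ^ n.factorization 2).primeFactorsList.length, ?_⟩
  have h2 : 2 ^ n.factorization 2 * (n / 2 ^ n.factorization 2) = n :=
    Nat.ordProj_mul_ordCompl_eq_self n 2
  have hm0 : n / 2 ^ n.factorization 2 ≠ 0 := by
    intro h0
    rw [h0, mul_zero] at h2
    exact hn h2.symm
  have hm : n / 2 ^ n.factorization 2 =
      3 ^ (n / 2 ^ n.factorization 2).primeFactorsList.length := by
    apply Nat.eq_prime_pow_of_unique_prime_dvd hm0
    intro d hd hdm
    have hdn : d ∣ n := hdm.trans (Nat.ordCompl_dvd n 2)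
    have hd5 := h d hd hdn
    have hd2 : d ≠ 2 := by
      rintro rfl
      exact Nat.not_dvd_ordCompl Nat.prime_two hn hdm
    have h2d := hd.two_le
    interval_cases d
    · exact absurd rfl hd2
    · rfl
    · exact absurd hd (by decide)
  calc n = 2 ^ n.factorization 2 * (n / 2 ^ n.factorization 2) := h2.symm
    _ = _ := by rw [← hm]

theorem main {G : Type*} [Group G] [Finite G]
    (h1991 : ∀ (p : ℕ) [Fact p.Prime], 5 ≤ p → ∀ S : Sylow p G, (S : Subgroup G) ≠ ⊥ →
      (∀ g ∈ Subgroup.normalizer ((S : Subgroup G) : Set G), (orderOf g).Coprime p →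
        g ∈ Subgroup.centralizer ((S : Subgroup G) : Set G)) →
      ∃ N : Subgroup G, N.Normal ∧ N.index = p)
    (h : ∀ q : ℕ, q.Prime → q ∣ Nat.card G → ∀ Q : Sylow q G,
      Subgroup.normalizer ((Q : Subgroup G) : Set G) = Q) :
    ∃ q : ℕ, q.Prime ∧ IsPGroup q G := by
  by_cases hG : Nat.card G = 1
  · exact ⟨2, Nat.prime_two, IsPGroup.of_card (n := 0) (by simpa using hG)⟩
  by_cases hbig : ∃ p : ℕ, p.Prime ∧ 5 ≤ p ∧ p ∣ Nat.card G
  · obtain ⟨p, hp, hp5, hpG⟩ := hbig
    haveI : Fact p.Prime := ⟨hp⟩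
    obtain ⟨S⟩ : Nonempty (Sylow p G) := inferInstance
    obtain ⟨N, hNn, hNi⟩ := h1991 p hp5 S (S.ne_bot_of_dvd_card hpG) (by
      intro g hg hcop
      rw [h p hp hpG S] at hg
      obtain ⟨j, hj⟩ := (IsPGroup.iff_orderOf.mp S.isPGroup') ⟨g, hg⟩
      rw [Subgroup.orderOf_mk] at hj
      rw [hj] at hcop
      have hj0 : j = 0 := by
        by_contra hj0
        have : p ∣ Nat.gcd (p ^ j) p := Nat.dvd_gcd (dvd_pow_self p hj0) dvd_rfl
        rw [Nat.Coprime] at hcop
        rw [hcop] at this
        exact hp.one_lt.ne' (Nat.dvd_one.mp this)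
      rw [hj0, pow_zero, orderOf_eq_one_iff] at hj
      rw [hj]
      exact Subgroup.one_mem _)
    haveI := hNn
    refine ⟨p, hp, isPGroup_of_normal_index h N ?_ p hp 1 (by rw [hNi, pow_one])⟩
    intro htop
    rw [htop, Subgroup.index_top] at hNi
    exact hp.one_lt.ne hNi
  · have hsmall : ∀ p : ℕ, p.Prime → p ∣ Nat.card G → p < 5 := by
      intro p hp hpG
      by_contra hp5
      exact hbig ⟨p, hp, not_lt.mp hp5, hpG⟩
    obtain ⟨a, b, hab⟩ := card_eq_two_pow_mul_three_pow (Nat.card_pos (α := G)).ne' hsmall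
    haveI : Group.IsSolvable G :=
      Cfsg.Agent.S0144.result 2 3 a b Nat.prime_two Nat.prime_three hab
    haveI : Nontrivial G := by
      by_contra hnt
      rw [not_nontrivial_iff_subsingleton] at hnt
      exact hG Nat.card_unique
    obtain ⟨M, p, hMn, hp, hMp⟩ := Cfsg.Agent.S4071.exists_normal_prime_index (G := G)
    haveI := hMn
    refine ⟨p, hp, isPGroup_of_normal_index h M ?_ p hp 1 (by rw [hMp, pow_one])⟩
    intro htop
    rw [htop, Subgroup.index_top] at hMp
    exact hp.one_lt.ne hMp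

end Cfsg.Agent.Lib.Helper23.SelfNorm
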